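import Groth.Prelude.Def_EtAcyc
import Groth.Agent.Etbc.H188.GeoPt
import Mathlib.AlgebraicGeometry.ResidueField
import Mathlib.AlgebraicGeometry.Morphisms.Preimmersion

/-!
# Fibres over points of the base and fibres over points of the local ring
-/

set_option autoImplicit false
universe u

open CategoryTheory CategoryTheory.Limits AlgebraicGeometry Opposite IsLocalRing

namespace Groth.Agent.Etbc.H252.GenFib

/-- The residue field map of a morphism surjective on stalks is bijective. -/
theorem bijective_residueFieldMap {X Y : Scheme.{u}} (s : X ⟶ Y) [SurjectiveOnStalks s] (a : X) :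
    Function.Bijective (s.residueFieldMap a).hom := by
  refine ⟨RingHom.injective _, fun z => ?_⟩
  obtain ⟨w, rfl⟩ := IsLocalRing.residue_surjective z
  obtain ⟨v, rfl⟩ := s.stalkMap_surjective a w
  exact ⟨IsLocalRing.residue _ v, rfl⟩

/-- The fibre of `Z ⟶ Spec O_{Y,y} ⟶ Y` over a generization `η` of `y` with separably closed residue field. -/
theorem isAcyclicSchemeN {L : Set ℕ} {n : ℕ} {Y : Scheme.{u}} (y : Y) {Z : Scheme.{u}}
    (g : Z ⟶ Spec (Y.presheaf.stalk y)) (hg : EtAcyc.GeomFibresAcyclicN L n g) (η : Y) (hη : η ⤳ y)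
    [hs : IsSepClosed (Y.residueField η)] :
    EtAcyc.IsAcyclicSchemeN L n (pullback (g ≫ Y.fromSpecStalk y) (Y.fromSpecResidueField η)) := by
  obtain ⟨a, rfl⟩ : η ∈ Set.range (Y.fromSpecStalk y) := by
    rw [Scheme.range_fromSpecStalk]
    exact hη
  let e : (Y.residueField (Y.fromSpecStalk y a)) ≃+* ((Spec (Y.presheaf.stalk y)).residueField a) :=
    RingEquiv.ofBijective _ (bijective_residueFieldMap (Y.fromSpecStalk y) a)
  let alg : Algebra ((Spec (Y.presheaf.stalk y)).residueField a) (Y.residueField (Y.fromSpecStalk y a)) :=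
    RingHom.toAlgebra (e.symm : _ →+* _)
  have halg : Algebra.IsAlgebraic ((Spec (Y.presheaf.stalk y)).residueField a)
      (Y.residueField (Y.fromSpecStalk y a)) := ⟨fun z => by
    have h1 : z = algebraMap ((Spec (Y.presheaf.stalk y)).residueField a) _ (e z) :=
      (e.symm_apply_apply z).symm
    rw [h1]
    exact isAlgebraic_algebraMap _⟩
  have h1 := hg a (Y.residueField (Y.fromSpecStalk y a))
  have h2 : EtAcyc.geomPt (Spec (Y.presheaf.stalk y)) a (Y.residueField (Y.fromSpecStalk y a)) ≫
      Y.fromSpecStalk y = Y.fromSpecResidueField (Y.fromSpecStalk y a) := by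
    have h3 : (Y.fromSpecStalk y).residueFieldMap a ≫ CommRingCat.ofHom (algebraMap
        ((Spec (Y.presheaf.stalk y)).residueField a) (Y.residueField (Y.fromSpecStalk y a))) =
        𝟙 (Y.residueField (Y.fromSpecStalk y a)) := by
      ext z
      exact e.symm_apply_apply z
    rw [EtAcyc.geomPt, Category.assoc, ← Scheme.Hom.SpecMap_residueFieldMap_fromSpecResidueField,
      ← Category.assoc, ← Spec.map_comp]
    exact (congrArg (fun z => Spec.map z ≫ Y.fromSpecResidueField (Y.fromSpecStalk y a)) h3).trans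
      ((congrArg (· ≫ Y.fromSpecResidueField (Y.fromSpecStalk y a)) (Spec.map_id _)).trans
        (Category.id_comp _))
  have h3 : IsPullback (pullback.fst g (EtAcyc.geomPt (Spec (Y.presheaf.stalk y)) a
      (Y.residueField (Y.fromSpecStalk y a)))) (pullback.snd g _) (g ≫ Y.fromSpecStalk y)
      (Y.fromSpecResidueField (Y.fromSpecStalk y a)) := by
    rw [← h2]
    exact ⟨⟨by rw [← Category.assoc, pullback.condition, Category.assoc]⟩,
      ⟨pullbackIsPullbackOfCompMono g _ (Y.fromSpecStalk y)⟩⟩
  exact Groth.Agent.Etbc.H188.GeoPt.isAcyclicSchemeN_of_iso h3.isoPullback h1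

end Groth.Agent.Etbc.H252.GenFib
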