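import Groth.Agent.Etbc.H252.GenFib
import Groth.Agent.Etbc.H252.NormalStalk
import Groth.Agent.Etbc.H189.GeomFib
import Groth.Agent.Etbc.H234.FibreStalk
import Groth.Agent.Etbc.H228.CompLow

/-!
# Comparison with the generic fibre over a normal base with separably closed generic point
-/

set_option autoImplicit false

universe u

open CategoryTheory CategoryTheory.Limits AlgebraicGeometry Opposite IsLocalRing

namespace Groth.Agent.Etbc.H252.GenericFibre

open Groth.Agent Groth.Agent.EtpbcB.StrictLoc Groth.Agent.Etrest.StrictLoc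
open Groth.Agent.Etbc.H234.FibreStalk

section stalk

variable {X Y W : Scheme.{u}} (h : Y ⟶ X) [QuasiCompact h] [QuasiSeparated h]
  {Ω : Type u} [Field Ω] [IsSepClosed Ω] (ξ : Spec (CommRingCat.of Ω) ⟶ X)
  {a : W ⟶ Y} {b : W ⟶ Spec (Osh ξ)} (hP : IsPullback a b h (toBase ξ))

include hP in
/-- The stalks of the unit and of the higher direct images. -/
theorem stalk_data {L : Set ℕ} {N : ℕ} (F : EtCoh.Ab X) (hF : EtAcyc.IsLTorsion L F)
    (hlc : EtRest.IsLocallyConstant F) (hV : EtAcyc.IsAcyclicSchemeN L N W) :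
    IsIso ((EtCoh.stalk ξ).map ((EtCoh.pullPushAdj h).unit.app F)) ∧
      ∀ q : ℕ, 1 ≤ q → q ≤ N →
        IsZero ((EtCoh.stalk ξ).obj ((EtCoh.Rpush h q).obj ((EtCoh.pull h).obj F))) := by
  have := henselianLocalRing ξ
  have := isSepClosed_residueField ξ
  have hb1 : QuasiCompact b := MorphismProperty.of_isPullback hP inferInstance
  have hb2 : QuasiSeparated b := MorphismProperty.of_isPullback hP inferInstance
  have hqc2 : CompactSpace W := QuasiCompact.compactSpace_of_compactSpace b
  have hqs2 : QuasiSeparatedSpace W := quasiSeparatedSpace_of_quasiSeparated b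
  have hs : ∀ s : (EtCoh.stalk (Etbase.StrictHensPoint.pt (Osh ξ))).obj
      ((EtCoh.pull (toBase ξ)).obj F), ∃ n : ℕ, EtAcyc.PrimesIn L n ∧ n • s = 0 := fun s =>
    (isLTorsion_iff_stalk L _).1 (isLTorsion_pull L (toBase ξ) F hF) _ _ s
  have key : ∀ q : ℕ, q ≤ N →
      Function.Bijective (EtCore.Hpull b ((EtCoh.pull (toBase ξ)).obj F) q) := by
    intro q hq
    exact bijective_Hpull_strictHens' (Osh ξ) b hV ((EtCoh.pull (toBase ξ)).obj F)
      (Etrest.LCConst.isLocallyConstant_pull (toBase ξ) F hlc) hs q hq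
  refine ⟨?_, fun q h1 h2 => ?_⟩
  · rw [ConcreteCategory.isIso_iff_bijective]
    exact (EtpbcA.LA.stalk_unit_iff h F ξ hP).2 (key 0 (Nat.zero_le _))
  · exact (EtpbcA.LA.isZero_stalk_iff h F ξ hP q h1).2 (key q h2)

end stalk

/-- Morphisms from the spectrum of a field are quasi-compact. -/
theorem quasiCompact_of_field {K : Type u} [Field K] {Y : Scheme.{u}}
    (g : Spec (CommRingCat.of K) ⟶ Y) : QuasiCompact g := by
  have : Subsingleton (Spec (CommRingCat.of K)) := inferInstanceAs (Subsingleton (PrimeSpectrum K))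
  exact ⟨fun U _ _ => (Set.subsingleton_of_subsingleton).isCompact⟩

variable {X Y : Scheme.{u}}

/-- The strict localization of `f` at a geometric point, over a strictly henselian local ring of the base. -/
theorem exists_local (f : X ⟶ Y) {L : Set ℕ} {n : ℕ} (hf : EtAcyc.IsLocAcyclicN f L n)
    {Ω : Type u} [Field Ω] [IsSepClosed Ω] (ξ : Spec (CommRingCat.of Ω) ⟶ X)
    [HenselianLocalRing (Y.presheaf.stalk (f (ξ default)))]
    [IsSepClosed (ResidueField (Y.presheaf.stalk (f (ξ default))))] :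
    ∃ g : Spec (Osh ξ) ⟶ Spec (Y.presheaf.stalk (f (ξ default))),
      EtAcyc.IsAcyclicN g L n ∧ g ≫ Y.fromSpecStalk (f (ξ default)) = toBase ξ ≫ f := by
  obtain ⟨_, _, _, h1⟩ := EtpbcB.OshHens.exists_isStrictHenselization ξ (ξ default) rfl
  have hl : IsLocalHom (algebraMap (Y.presheaf.stalk (f (ξ default)))
    (Y.presheaf.stalk (f (ξ default)))) := ⟨fun _ h => h⟩
  have hself := EtpbcB.StrictHensTransport.self (Y.presheaf.stalk (f (ξ default)))
  let β : Y.presheaf.stalk (f (ξ default)) →+* Osh ξ :=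
    (algebraMap (X.presheaf.stalk (ξ default)) (Osh ξ)).comp (f.stalkMap (ξ default)).hom
  let alg : Algebra (Y.presheaf.stalk (f (ξ default))) (Osh ξ) := β.toAlgebra
  have hl2 : IsLocalHom (algebraMap (Y.presheaf.stalk (f (ξ default))) (Osh ξ)) :=
    inferInstanceAs (IsLocalHom ((algebraMap (X.presheaf.stalk (ξ default)) (Osh ξ)).comp
      (f.stalkMap (ξ default)).hom))
  have key := hf (ξ default) (Y.presheaf.stalk (f (ξ default))) (Osh ξ) rfl
  refine ⟨_, key, ?_⟩
  rw [← h1, Hens2.specOf, Category.assoc, ← Scheme.SpecMap_stalkMap_fromSpecStalk,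
    ← Category.assoc, ← Spec.map_comp]
  rfl

theorem main [IsIntegral Y] (hY : Pi1.IsNormalScheme Y)
    [IsSepClosed (Y.residueField (genericPoint Y))]
    (f : X ⟶ Y) (L : Set ℕ) (n : ℕ) (hL : ∃ ℓ ∈ L, ℓ.Prime) (hf : EtAcyc.IsLocAcyclicN f L n)
    (F : EtCoh.Ab X) (hF : EtAcyc.IsLTorsion L F) (hlc : EtRest.IsLocallyConstant F)
    [PreservesFiniteLimits (EtCoh.pull (pullback.fst f (Y.fromSpecResidueField (genericPoint Y))))] :
    (∀ q : ℕ, q ≤ n →
      Function.Bijective (EtCore.Hpull (pullback.fst f (Y.fromSpecResidueField (genericPoint Y))) F q)) ∧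
    Function.Injective (EtCore.Hpull (pullback.fst f (Y.fromSpecResidueField (genericPoint Y))) F (n + 1)) := by
  have hqc : QuasiCompact (Y.fromSpecResidueField (genericPoint Y)) :=
    quasiCompact_of_field (K := Y.residueField (genericPoint Y)) _
  have data : ∀ {Ω : Type u} [Field Ω] [IsSepClosed Ω] (ξ : Spec (CommRingCat.of Ω) ⟶ X),
      IsIso ((EtCoh.stalk ξ).map ((EtCoh.pullPushAdj (pullback.fst f
        (Y.fromSpecResidueField (genericPoint Y)))).unit.app F)) ∧
      ∀ q : ℕ, 1 ≤ q → q ≤ n →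
        IsZero ((EtCoh.stalk ξ).obj ((EtCoh.Rpush (pullback.fst f
          (Y.fromSpecResidueField (genericPoint Y))) q).obj ((EtCoh.pull (pullback.fst f
          (Y.fromSpecResidueField (genericPoint Y)))).obj F))) := by
    intro Ω _ _ ξ
    obtain ⟨h1, h2⟩ := NormalStalk.strictlyHenselian hY (f (ξ default))
    obtain ⟨g, hg, hgf⟩ := exists_local f hf ξ
    have h3 := GenFib.isAcyclicSchemeN (f (ξ default)) g (H189.GeomFib.geomFibresAcyclicN g hL hg)
      (genericPoint Y) (genericPoint_specializes _)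
    rw [hgf] at h3
    have hP0 := IsPullback.of_hasPullback (toBase ξ ≫ f) (Y.fromSpecResidueField (genericPoint Y))
    let a : pullback (toBase ξ ≫ f) (Y.fromSpecResidueField (genericPoint Y)) ⟶
        pullback f (Y.fromSpecResidueField (genericPoint Y)) :=
      pullback.lift (pullback.fst _ _ ≫ toBase ξ) (pullback.snd _ _)
        (by rw [Category.assoc]; exact pullback.condition)
    have hP : IsPullback a (pullback.fst _ _)
        (pullback.fst f (Y.fromSpecResidueField (genericPoint Y))) (toBase ξ) := by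
      refine (IsPullback.of_bot (v₂₁ := pullback.snd _ _) (v₂₂ := f)
        (h₃₁ := Y.fromSpecResidueField (genericPoint Y)) (v₁₁ := a) (v₁₂ := toBase ξ)
        (h₁₁ := pullback.fst _ _) (h₂₁ := pullback.fst _ _) ?_ (pullback.lift_fst _ _ _).symm
        (IsPullback.of_hasPullback f _)).flip
      rw [pullback.lift_snd]
      exact hP0
    exact stalk_data _ ξ hP F hF hlc h3
  have hu : IsIso ((EtCoh.pullPushAdj (pullback.fst f
      (Y.fromSpecResidueField (genericPoint Y)))).unit.app F) := by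
    refine Etcore.Stalks.isIso_of_stalks _ fun x => ?_
    obtain ⟨Ω, _, _, ξ, hξ⟩ := Etcore.Stalks.exists_geom x
    exact ⟨Ω, inferInstance, inferInstance, ξ, hξ, (data ξ).1⟩
  refine H228.CompLow.Hpull_low _ F n fun q h1 h2 => ?_
  refine Etcore.Stalks.isZero_of_stalks _ fun x => ?_
  obtain ⟨Ω, _, _, ξ, hξ⟩ := Etcore.Stalks.exists_geom x
  exact ⟨Ω, inferInstance, inferInstance, ξ, hξ, (data ξ).2 q h1 h2⟩

end Groth.Agent.Etbc.H252.GenericFibre
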